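import Mathlib

/-!
# Tools: normality of a Sylow subgroup from explicit elements (helper121)

* `normal_of_card` : `m ∣ |N_C(P)|`, `|C| ∣ m k` and no divisor `d > 1` of `k` is congruent to 1 modulo `p`;
* `mem_normalizer_closure` : `h s h⁻¹ ∈ ⟨S⟩` for `s ∈ S`;
* `index_not_dvd` : `|P| = p ^ n`, `p ^ (n + 1)` does not divide `|C|`.
-/

set_option autoImplicit false

open Subgroup

namespace Cfsg.Agent.H121.K6

universe v

variable {X : Type v} [Group X] [Finite X] {p : ℕ} [hp : Fact p.Prime]

theorem index_not_dvd {C P : Subgroup X} (hPC : P ≤ C) {n : ℕ} (hP : p ^ n ∣ Nat.card P)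
    (hC : ¬ p ^ (n + 1) ∣ Nat.card C) : ¬ p ∣ (P.subgroupOf C).index := by
  intro h
  apply hC
  have h1 : Nat.card ↥(P.subgroupOf C) = Nat.card P := Nat.card_congr (Subgroup.subgroupOfEquivOfLe hPC).toEquiv
  rw [← (P.subgroupOf C).card_mul_index, h1, pow_succ]
  exact mul_dvd_mul hP h

theorem normal_of_card {C P : Subgroup X} (hPC : P ≤ C) (hP : IsPGroup p P)
    (hi : ¬ p ∣ (P.subgroupOf C).index) {m k : ℕ} (hm0 : 0 < m)
    (hm : m ∣ Nat.card ↥(normalizer (P : Set X) ⊓ C)) (hc : Nat.card C ∣ m * k)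
    (hk : ∀ d, d ∣ k → d % p = 1 → d = 1) : (P.subgroupOf C).Normal := by
  have h1 : IsPGroup p (P.subgroupOf C) := hP.comap_subtype
  let S : Sylow p C := h1.toSylow hi
  have hS : (S : Subgroup C) = P.subgroupOf C := rfl
  have h2 := S.card_eq_index_normalizer
  have h3 : Nat.card (Sylow p C) % p = 1 := by
    have := card_sylow_modEq_one p C
    rw [Nat.ModEq, Nat.mod_eq_of_lt hp.out.one_lt] at this
    exact this
  have h4 : normalizer ((S : Subgroup C) : Set C) = (normalizer (P : Set X)).subgroupOf C := by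
    rw [hS, Subgroup.subgroupOf_normalizer_eq hPC]
  have h5 : Nat.card ↥(normalizer ((S : Subgroup C) : Set C)) = Nat.card ↥(normalizer (P : Set X) ⊓ C) := by
    rw [h4, ← Subgroup.inf_subgroupOf_right]
    exact Nat.card_congr (Subgroup.subgroupOfEquivOfLe inf_le_right).toEquiv
  have h6 : Nat.card (Sylow p C) ∣ k := by
    rw [← (normalizer ((S : Subgroup C) : Set C)).card_mul_index, h5] at hc
    have h2' : (normalizer ((S : Subgroup C) : Set C)).index = Nat.card (Sylow p C) := h2.symm
    rw [h2'] at hc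
    obtain ⟨t, ht⟩ := hm
    rw [ht, mul_assoc] at hc
    exact (Dvd.intro_left t rfl).trans (Nat.dvd_of_mul_dvd_mul_left hm0 hc)
  have h7 := hk _ h6 h3
  have h8 : Subsingleton (Sylow p C) := (Nat.card_eq_one_iff_unique.1 h7).1
  exact Sylow.normal_of_subsingleton S

theorem mem_normalizer_closure {S : Set X} {h : X} (H : ∀ s ∈ S, h * s * h⁻¹ ∈ closure S) :
    h ∈ normalizer ((closure S : Subgroup X) : Set X) := by
  have h1 : ∀ z ∈ closure S, h * z * h⁻¹ ∈ closure S := by
    intro z hz
    have h2 : closure S ≤ (closure S).comap (MulAut.conj h).toMonoidHom := by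
      refine (closure_le _).2 ?_
      intro s hs
      exact H s hs
    exact h2 hz
  have h2 : (closure S).map (MulAut.conj h).toMonoidHom = closure S := by
    apply Subgroup.eq_of_le_of_card_ge
    · rintro _ ⟨z, hz, rfl⟩
      exact h1 z hz
    · exact (Nat.card_congr ((closure S).equivMapOfInjective _ (MulAut.conj h).injective).toEquiv).le
  rw [Subgroup.mem_normalizer_iff]
  intro z
  constructor
  · exact h1 z
  · intro hz
    have h3 : h * z * h⁻¹ ∈ (closure S).map (MulAut.conj h).toMonoidHom := by rw [h2]; exact hz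
    obtain ⟨w, hw, hwz⟩ := h3
    have h4 : h * w * h⁻¹ = h * z * h⁻¹ := hwz
    have h5 : w = z := mul_left_cancel (mul_right_cancel h4)
    rw [← h5]
    exact hw

omit [Finite X] in
/-- the order of an element of `N_C(P)` -/
theorem dvd_of_mem {C N : Subgroup X} {y : X} {m : ℕ} (hy : y ∈ N ⊓ C) (ho : orderOf y = m) :
    m ∣ Nat.card ↥(N ⊓ C) := by
  have h := orderOf_dvd_natCard (⟨y, hy⟩ : ↥(N ⊓ C))
  rwa [Subgroup.orderOf_mk, ho] at h

end Cfsg.Agent.H121.K6
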